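import Cfsg.Agent.H54.Kill.Base
import Cfsg.Agent.HN.A12Group
import Cfsg.Agent.S1701

/-!
# Kill row for the Harada–Norton group (helper54)

In a subgroup `A₁₂` a seven-cycle commutes with a symmetric group of degree 3.
-/

set_option autoImplicit false
set_option maxRecDepth 100000

namespace Cfsg.Agent.H54.Kill.HN

open Cfsg Cfsg.Spor Cfsg.Agent.H480 Equiv

/-- the seven-cycle -/
def z : alternatingGroup (Fin 12) := ⟨c[0, 1, 2, 3, 4, 5, 6], Perm.mem_alternatingGroup.2 (by decide +kernel)⟩
/-- the first involution -/
def a : alternatingGroup (Fin 12) := ⟨c[7, 8] * c[9, 10], Perm.mem_alternatingGroup.2 (by decide +kernel)⟩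
/-- the second involution -/
def b : alternatingGroup (Fin 12) := ⟨c[7, 8] * c[9, 11], Perm.mem_alternatingGroup.2 (by decide +kernel)⟩

theorem kill {K : Type*} [Group K] (h : Spor.IsoHN K) : Kill K := by
  obtain ⟨e⟩ := h
  have hcard : Nat.card Cfsg.Spor.HN = 273030912000000 := S1701.result.2
  have : Finite Spor.HN := Nat.finite_of_card_ne_zero (by rw [hcard]; norm_num)
  refine Kill.congr e.symm ?_
  obtain ⟨L, -, ⟨e'⟩⟩ := Cfsg.Agent.HN.A12Group.exists_perm_group S1701.result
  let f : alternatingGroup (Fin 12) →* Spor.HN := L.subtype.comp e'.symm.toMonoidHom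
  have hf : Function.Injective f := L.subtype_injective.comp e'.symm.injective
  refine kill_of_invol (r := 7) (by norm_num) (by norm_num) ?_ (z := f z) (a := f a) (b := f b) ?_ ?_ ?_ ?_ ?_ ?_ ?_
  · rw [hcard]
    norm_num
  · rw [orderOf_injective f hf]
    have : Fact (Nat.Prime 7) := ⟨by norm_num⟩
    exact orderOf_eq_prime (by decide +kernel) (by decide +kernel)
  · rw [← map_mul, ← map_mul]
    exact congrArg f (by decide +kernel)
  · rw [← map_mul, ← map_mul]
    exact congrArg f (by decide +kernel)
  · rw [← map_mul, ← map_one f]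
    exact congrArg f (by decide +kernel)
  · rw [← map_mul, ← map_one f]
    exact congrArg f (by decide +kernel)
  · rw [← map_mul, ← map_pow, ← map_one f]
    exact congrArg f (by decide +kernel)
  · exact fun h => absurd (hf h) (by decide +kernel)

end Cfsg.Agent.H54.Kill.HN
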